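import Cfsg.Agent.SLn.Basic
import Cfsg.Agent.SLn.Simple
import Cfsg.Agent.SLn.Card

/-!
`SL₄(2) ≅ A₈`: the group permutes the eight maximal coherent sets of symplectic forms on `F₂⁴`.
-/

set_option autoImplicit false

namespace CfsgLib.A8GL4

open Matrix
open Matrix.SpecialLinearGroup (transvection transvection_coe coe_mul)

abbrev M4 := Matrix (Fin 4) (Fin 4) (ZMod 2)

/-- the alternating matrix with six given upper entries -/
def altMat (a b c d e f : ZMod 2) : M4 := !![0, a, b, c; a, 0, d, e; b, d, 0, f; c, e, f, 0]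

/-- a frame of eight forms, all sums of two of which are non-degenerate -/
def u : Fin 8 → M4 :=
  ![altMat 0 0 0 0 0 0, altMat 0 0 1 1 0 0, altMat 0 1 1 0 1 0, altMat 1 1 0 1 1 0,
    altMat 1 1 1 0 0 1, altMat 1 0 0 1 0 1, altMat 1 0 1 0 1 1, altMat 0 1 0 1 1 1]

/-- permutations of the frame induced by the twelve elementary transvections -/
def tab : Fin 4 → Fin 4 → Fin 8 → Fin 8 :=
  ![![id, ![4, 5, 6, 7, 0, 1, 2, 3], ![2, 3, 0, 1, 6, 7, 4, 5], ![1, 0, 3, 2, 5, 4, 7, 6]],
    ![![5, 6, 4, 7, 2, 0, 1, 3], id, ![1, 0, 3, 2, 7, 6, 5, 4], ![3, 2, 1, 0, 6, 7, 4, 5]],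
    ![![7, 2, 1, 5, 6, 3, 4, 0], ![1, 0, 7, 6, 5, 4, 3, 2], id, ![5, 4, 6, 7, 1, 0, 2, 3]],
    ![![1, 0, 7, 4, 3, 6, 5, 2], ![2, 7, 0, 5, 6, 3, 4, 1], ![6, 5, 4, 7, 2, 1, 0, 3], id]]

theorem tab_involutive : ∀ i j : Fin 4, ∀ k : Fin 8, tab i j (tab i j k) = k := by decide

set_option maxRecDepth 100000 in
set_option maxHeartbeats 4000000 in
theorem tab_spec : ∀ i j : Fin 4, i ≠ j → ∀ k : Fin 8,
    (1 + Matrix.single i j (1 : ZMod 2)) * u k * (1 + Matrix.single i j (1 : ZMod 2))ᵀ =
      u (tab i j k) + u (tab i j 0) := by decide +kernel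

theorem pair_inj : ∀ a b c d : Fin 8, a ≠ b → u a + u b = u c + u d → (c = a ∧ d = b) ∨ (c = b ∧ d = a) := by
  decide +kernel

theorem u_zero : u 0 = 0 := by decide +kernel

theorem add_self' (A : M4) : A + A = 0 := by
  ext i j
  exact CharTwo.add_self_eq_zero _

/-- `π` is induced by `g` -/
def Aff (g : SpecialLinearGroup (Fin 4) (ZMod 2)) (π : Equiv.Perm (Fin 8)) : Prop :=
  ∀ i, (g : M4) * u i * (g : M4)ᵀ = u (π i) + u (π 0)

theorem Aff.one : Aff 1 1 := fun i => by simp [u_zero]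

theorem Aff.mul {g h : SpecialLinearGroup (Fin 4) (ZMod 2)} {π σ : Equiv.Perm (Fin 8)} (hg : Aff g π)
    (hh : Aff h σ) : Aff (g * h) (π * σ) := fun i => by
  rw [coe_mul, transpose_mul]
  calc (g : M4) * h * u i * ((h : M4)ᵀ * (g : M4)ᵀ) = (g : M4) * ((h : M4) * u i * (h : M4)ᵀ) * (g : M4)ᵀ := by
        simp only [mul_assoc]
    _ = u ((π * σ) i) + u (π 0) + (u ((π * σ) 0) + u (π 0)) := by
        rw [hh i, mul_add, add_mul, hg, hg]; rfl
    _ = u ((π * σ) i) + u ((π * σ) 0) + (u (π 0) + u (π 0)) := by abel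
    _ = _ := by rw [add_self', add_zero]

theorem Aff.unique {g : SpecialLinearGroup (Fin 4) (ZMod 2)} {π σ : Equiv.Perm (Fin 8)} (h1 : Aff g π)
    (h2 : Aff g σ) : π = σ := by
  by_contra hne
  obtain ⟨i, hi⟩ : ∃ i, π i ≠ σ i := by
    by_contra hc
    push Not at hc
    exact hne (Equiv.ext hc)
  have hd : ∀ j, u (π j) + u (σ j) = u (π 0) + u (σ 0) := fun j => by
    have := (h1 j).symm.trans (h2 j)
    calc u (π j) + u (σ j) = (u (π j) + u (π 0)) + (u (π 0) + u (σ j)) := by
          rw [← add_assoc, add_assoc (u (π j)), add_self', add_zero]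
      _ = u (σ j) + u (σ 0) + (u (π 0) + u (σ j)) := by rw [this]
      _ = u (σ 0) + u (π 0) + (u (σ j) + u (σ j)) := by abel
      _ = _ := by rw [add_self', add_zero, add_comm]
  have h3 : ∀ j, π j = π i ∨ π j = σ i := fun j =>
    (pair_inj (π i) (σ i) (π j) (σ j) hi ((hd i).trans (hd j).symm)).imp And.left And.left
  have h4 : (Finset.univ : Finset (Fin 8)) ⊆ {π i, σ i} := by
    intro x _
    rcases h3 (π.symm x) with e | e <;> rw [Equiv.apply_symm_apply] at e <;> simp [e]
  have h5 := (Finset.card_le_card h4).trans Finset.card_le_two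
  simp at h5

/-- the graph of the induced action -/
def graphMonoid : Submonoid (SpecialLinearGroup (Fin 4) (ZMod 2) × Equiv.Perm (Fin 8)) where
  carrier := {x | Aff x.1 x.2}
  one_mem' := Aff.one
  mul_mem' := Aff.mul

/-- the graph of the induced action, as a subgroup -/
def graph : Subgroup (SpecialLinearGroup (Fin 4) (ZMod 2) × Equiv.Perm (Fin 8)) :=
  { graphMonoid with
    inv_mem' := fun {x} hx => by
      have h1 := Submonoid.pow_mem graphMonoid hx (orderOf x - 1)
      rwa [← eq_inv_of_mul_eq_one_left (show x ^ (orderOf x - 1) * x = 1 by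
        rw [← pow_succ, Nat.sub_add_cancel (orderOf_pos x), pow_orderOf_eq_one])] }

theorem fst_surjective (g : SpecialLinearGroup (Fin 4) (ZMod 2)) : ∃ π, Aff g π := by
  have h : g ∈ graph.map (MonoidHom.fst _ _) := by
    have htop : graph.map (MonoidHom.fst _ _) = ⊤ := by
      rw [eq_top_iff, ← CfsgLib.SLn.closure_transvections, Subgroup.closure_le]
      rintro t ⟨i, j, hij, c, rfl⟩
      rcases (show ∀ c : ZMod 2, c = 0 ∨ c = 1 by decide) c with rfl | rfl
      · refine ⟨(1, 1), Aff.one, ?_⟩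
        show (1 : SpecialLinearGroup (Fin 4) (ZMod 2)) = _
        apply Subtype.ext
        show (1 : M4) = _
        rw [transvection_coe, Matrix.single_zero, add_zero]
      · refine ⟨(transvection hij 1, Function.Involutive.toPerm _ (tab_involutive i j)), fun k => ?_, rfl⟩
        show (transvection hij (1 : ZMod 2) : M4) * u k * (transvection hij (1 : ZMod 2) : M4)ᵀ = _
        rw [transvection_coe]
        exact tab_spec i j hij k
    rw [htop]; trivial
  obtain ⟨⟨g', π⟩, hgp, rfl⟩ := h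
  exact ⟨π, hgp⟩

/-- the induced action on the frame -/
noncomputable def φ : SpecialLinearGroup (Fin 4) (ZMod 2) →* Equiv.Perm (Fin 8) :=
  MonoidHom.mk' (fun g => (fst_surjective g).choose) fun a b =>
    (fst_surjective (a * b)).choose_spec.unique
      ((fst_surjective a).choose_spec.mul (fst_surjective b).choose_spec)

theorem φ_eq {g : SpecialLinearGroup (Fin 4) (ZMod 2)} {π : Equiv.Perm (Fin 8)} (h : Aff g π) : φ g = π :=
  (fst_surjective g).choose_spec.unique h

theorem center_eq_bot (F : Type*) [Field F] [Fintype F] (hF : Fintype.card F = 2) :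
    Subgroup.center (SpecialLinearGroup (Fin 4) F) = ⊥ := by
  apply Subgroup.eq_bot_of_card_eq
  rw [CfsgLib.SLn.card_center_SL F 4 (by norm_num), hF]
  rfl

theorem card_SL : Nat.card (SpecialLinearGroup (Fin 4) (ZMod 2)) = 20160 :=
  calc Nat.card (SpecialLinearGroup (Fin 4) (ZMod 2))
      = (Fintype.card (ZMod 2) - 1) * Nat.card (SpecialLinearGroup (Fin 4) (ZMod 2)) := by
        rw [ZMod.card, show (2 : ℕ) - 1 = 1 from rfl, one_mul]
    _ = ∏ i : Fin 4, (Fintype.card (ZMod 2) ^ 4 - Fintype.card (ZMod 2) ^ (i : ℕ)) :=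
        CfsgLib.SLn.card_SL_eq (ZMod 2) 4 (by norm_num)
    _ = 20160 := by rw [ZMod.card, Fin.prod_univ_four]; rfl

/-- the sign-restricted action -/
theorem nonempty_equiv : Nonempty (SpecialLinearGroup (Fin 4) (ZMod 2) ≃* alternatingGroup (Fin 8)) := by
  haveI : Fact (Nat.Prime 2) := ⟨Nat.prime_two⟩
  haveI hs : IsSimpleGroup (SpecialLinearGroup (Fin 4) (ZMod 2)) := by
    haveI := CfsgLib.SLn.isSimpleGroup_PSL (ι := Fin 4) (F := ZMod 2) (Or.inl (by simp))
    exact (((QuotientGroup.quotientMulEquivOfEq (center_eq_bot (ZMod 2) (ZMod.card 2))).trans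
      QuotientGroup.quotientBot).symm).isSimpleGroup
  have hne : φ.ker ≠ ⊤ := by
    intro htop
    have h01 : (0 : Fin 4) ≠ 1 := by decide
    have h1 : φ (transvection h01 (1 : ZMod 2)) = Function.Involutive.toPerm _ (tab_involutive 0 1) :=
      φ_eq (fun k => by rw [transvection_coe]; exact tab_spec 0 1 h01 k)
    rw [show φ (transvection h01 (1 : ZMod 2)) = 1 from MonoidHom.mem_ker.mp (htop ▸ Subgroup.mem_top _)] at h1
    exact absurd (DFunLike.congr_fun h1 0) (by decide)
  have hinj : Function.Injective φ :=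
    (MonoidHom.ker_eq_bot_iff φ).mp ((φ.normal_ker.eq_bot_or_eq_top).resolve_right hne)
  have hev : ∀ g, φ g ∈ alternatingGroup (Fin 8) := fun g => by
    rw [Equiv.Perm.mem_alternatingGroup]
    have hc : g ∈ commutator (SpecialLinearGroup (Fin 4) (ZMod 2)) := by
      rw [CfsgLib.SLn.commutator_eq_top (Or.inl (by simp))]
      exact Subgroup.mem_top _
    have := Abelianization.commutator_subset_ker (Equiv.Perm.sign.comp φ) hc
    rwa [MonoidHom.mem_ker] at this
  let ψ := φ.codRestrict (alternatingGroup (Fin 8)) hev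
  refine ⟨MulEquiv.ofBijective ψ ((Nat.bijective_iff_injective_and_card _).mpr
    ⟨fun a b h => hinj (congrArg Subtype.val h), ?_⟩)⟩
  rw [card_SL, nat_card_alternatingGroup, Nat.card_eq_fintype_card, Fintype.card_fin]
  rfl

/-- `GL₄(2)` embeds in `A₈`. -/
theorem exists_GL_hom : ∃ f : GL (Fin 4) (ZMod 2) →* alternatingGroup (Fin 8), Function.Injective f := by
  obtain ⟨e⟩ := nonempty_equiv
  have hdet : ∀ g : GL (Fin 4) (ZMod 2), (g : M4).det = 1 := fun g => by
    rcases (show ∀ c : ZMod 2, c = 0 ∨ c = 1 by decide) (g : M4).det with h | h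
    · exact absurd h (IsUnit.ne_zero ((Matrix.isUnit_iff_isUnit_det _).mp g.isUnit))
    · exact h
  let j : GL (Fin 4) (ZMod 2) →* SpecialLinearGroup (Fin 4) (ZMod 2) :=
    MonoidHom.mk' (fun g => ⟨(g : M4), hdet g⟩) fun a b => rfl
  exact ⟨e.toMonoidHom.comp j, e.injective.comp fun a b h => Units.ext (congrArg Subtype.val h)⟩

end CfsgLib.A8GL4
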