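import Cfsg.Agent.A8GL4.Radical
import Cfsg.Agent.A8GL4.Basic
import Cfsg.Agent.H29.Dickson.GroupIso
import Cfsg.Agent.PrimeDegree.Seven
import Cfsg.Agent.L168.Facts
import Cfsg.Agent.Jordan.PrimeCycle
import Cfsg.Agent.Transfer.Focal

/-! Groups with trivial cores of small permutation degree. -/

set_option autoImplicit false

namespace CfsgLib.A8GL4

open Equiv

variable {G : Type*} [Group G] [Finite G]

theorem nonsolvable (h : TrivCores G) [Nontrivial G] : ¬ Group.IsSolvable G := by
  intro hs
  haveI : Fact (Nat.Prime 2) := ⟨Nat.prime_two⟩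
  rcases CfsgLib.PCore.cores_ne_bot_of_isSolvable (p := 2) (G := G) with e | e
  · exact e h.1
  · exact e h.2

theorem prime_dvd_thirty (hns : ¬ Group.IsSolvable G) {m : ℕ} (hm : Nat.card G ∣ m)
    (hm' : ∀ r : ℕ, r.Prime → r ∣ m → r = 2 ∨ r = 3 ∨ r = 5) : 30 ∣ Nat.card G := by
  have h : ∀ p, p = 2 ∨ p = 3 ∨ p = 5 → p ∣ Nat.card G := by
    intro p hp
    by_contra hd
    refine hns ?_
    rcases hp with rfl | rfl | rfl
    · exact CfsgLib.CharBasics.isSolvable_two_primes 3 5 fun r hr hrd =>
        (hm' r hr (hrd.trans hm)).resolve_left fun e => hd (e ▸ hrd)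
    · exact CfsgLib.CharBasics.isSolvable_two_primes 2 5 fun r hr hrd =>
        (hm' r hr (hrd.trans hm)).imp_right fun e => e.resolve_left fun e => hd (e ▸ hrd)
    · exact CfsgLib.CharBasics.isSolvable_two_primes 2 3 fun r hr hrd =>
        (hm' r hr (hrd.trans hm)).imp_right fun e => e.resolve_right fun e => hd (e ▸ hrd)
  rw [show (30 : ℕ) = 2 * 3 * 5 from rfl]
  exact Nat.Coprime.mul_dvd_of_dvd_of_dvd (by decide)
    (Nat.Coprime.mul_dvd_of_dvd_of_dvd (by decide) (h 2 (by simp)) (h 3 (by simp))) (h 5 (by simp))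

theorem prime_of_dvd_factorial {n : ℕ} (hn : n ≤ 6) {r : ℕ} (hr : r.Prime) (h : r ∣ n.factorial) :
    r = 2 ∨ r = 3 ∨ r = 5 := by
  have h1 : r ≤ 6 := ((Nat.Prime.dvd_factorial hr).mp h).trans hn
  have h2 := hr.two_le
  interval_cases r <;> norm_num at hr <;> simp

theorem card_ne_thirty (hns : ¬ Group.IsSolvable G) : Nat.card G ≠ 30 := fun e => by
  haveI := IsZGroup.of_squarefree (G := G) (by
    rw [e, Nat.squarefree_iff_nodup_primeFactorsList (by norm_num)]
    simp)
  exact hns inferInstance

theorem five_cases {α : Type*} [Fintype α] [DecidableEq α] (hα : Fintype.card α = 5) (hns : ¬ Group.IsSolvable G)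
    (f : G →* Perm α) (hf : Function.Injective f) :
    Nonempty (G ≃* alternatingGroup (Fin 5)) ∨ Nonempty (G ≃* Perm (Fin 5)) := by
  have hd : Nat.card G ∣ 120 := by
    have := Subgroup.card_dvd_of_injective f hf
    rwa [Nat.card_perm, Nat.card_eq_fintype_card (α := α), hα] at this
  have h30 := prime_dvd_thirty hns hd fun r hr h => prime_of_dvd_factorial (n := 5) (by norm_num) hr h
  obtain ⟨k, hk⟩ := h30
  rw [hk] at hd
  have h4 : k ∣ 4 := Nat.dvd_of_mul_dvd_mul_left (by norm_num) (show 30 * k ∣ 30 * 4 from hd)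
  have hkle : k ≤ 4 := Nat.le_of_dvd (by norm_num) h4
  interval_cases k
  · exact absurd h4 (by norm_num)
  · exact absurd hk (card_ne_thirty hns)
  · exact Or.inl (CfsgLib.H29.Dickson.iso_alternating_of_injective hα f hf (by rw [hk]; rfl))
  · exact absurd h4 (by norm_num)
  · exact Or.inr (CfsgLib.H29.Dickson.iso_perm_of_injective hα f hf (by rw [hk]; rfl))

theorem six_cases {α : Type*} [Fintype α] [DecidableEq α] (hα : Fintype.card α = 6) (h : TrivCores G) [Nontrivial G]
    (f : G →* Perm α) (hf : Function.Injective f) :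
    Nonempty (G ≃* alternatingGroup (Fin 5)) ∨ Nonempty (G ≃* Perm (Fin 5)) ∨
      Nonempty (G ≃* alternatingGroup (Fin 6)) ∨ Nonempty (G ≃* Perm (Fin 6)) := by
  classical
  have hns := nonsolvable h
  have hA : Nat.card (alternatingGroup α) = 360 := by
    haveI : Nontrivial α := Fintype.one_lt_card_iff_nontrivial.mp (by omega)
    rw [nat_card_alternatingGroup, Nat.card_eq_fintype_card, hα]; rfl
  haveI : IsSimpleGroup (alternatingGroup α) := alternatingGroup.isSimpleGroup (by rw [Nat.card_eq_fintype_card]; omega)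
  have hd : Nat.card G ∣ 720 := by
    have := Subgroup.card_dvd_of_injective f hf
    rwa [Nat.card_perm, Nat.card_eq_fintype_card (α := α), hα] at this
  obtain ⟨k, hk⟩ := prime_dvd_thirty hns hd fun r hr h => prime_of_dvd_factorial (n := 6) le_rfl hr h
  have hk24 : k ∣ 24 := Nat.dvd_of_mul_dvd_mul_left (by norm_num) (show 30 * k ∣ 30 * 24 by rw [← hk]; exact hd)
  have hG2 : Nat.card G = 360 → Nonempty (G ≃* alternatingGroup (Fin 6)) := fun e =>
    CfsgLib.H29.Dickson.iso_alternating_of_injective hα f hf (by rw [e]; rfl)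
  have hG1 : Nat.card G = 720 → Nonempty (G ≃* Perm (Fin 6)) := fun e =>
    CfsgLib.H29.Dickson.iso_perm_of_injective hα f hf (by rw [e]; rfl)
  -- the even part
  set K : Subgroup (alternatingGroup α) := f.range.subgroupOf (alternatingGroup α) with hK
  by_cases hKtop : K = ⊤
  · have hle : alternatingGroup α ≤ f.range := by
      intro x hx
      have : (⟨x, hx⟩ : alternatingGroup α) ∈ K := hKtop ▸ Subgroup.mem_top _
      exact this
    have h1 := Subgroup.card_dvd_of_le hle
    rw [hA, Nat.card_congr (MonoidHom.ofInjective hf).symm.toEquiv] at h1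
    obtain ⟨j, hj⟩ := h1
    rw [hj] at hd
    have hj2 : j ∣ 2 := Nat.dvd_of_mul_dvd_mul_left (by norm_num) (show 360 * j ∣ 360 * 2 from hd)
    rcases (Nat.dvd_prime Nat.prime_two).mp hj2 with e | e
    · exact Or.inr (Or.inr (Or.inl (hG2 (by rw [hj, e]))))
    · exact Or.inr (Or.inr (Or.inr (hG1 (by rw [hj, e]))))
  have hns' : ¬ Group.IsSolvable K := by
    intro hsK
    let g : G →* ℤˣ := Perm.sign.comp f
    let j : g.ker →* K := MonoidHom.mk' (fun x => ⟨⟨f x, Perm.mem_alternatingGroup.mpr x.2⟩, ⟨(x : G), rfl⟩⟩)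
      (fun a b => Subtype.ext (Subtype.ext (map_mul f _ _)))
    have hj : Function.Injective j := fun a b e =>
      Subtype.ext (hf (congrArg (fun z : K => ((z : alternatingGroup α) : Perm α)) e))
    haveI : Group.IsSolvable g.ker := Group.isSolvable_of_isSolvable_injective hj
    exact hns (Group.isSolvable_of_ker_le_range g.ker.subtype g (by rw [Subgroup.range_subtype]))
  -- index at least six
  have hcardK : Nat.card K = 60 ∧ K.index = 6 := by
    have hmul := K.card_mul_index
    rw [hA] at hmul
    obtain ⟨l, hl⟩ := prime_dvd_thirty hns' (Dvd.intro _ hmul) fun r hr hr' =>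
      prime_of_dvd_factorial (n := 6) le_rfl hr (hr'.trans (by decide))
    have hdvd : Nat.card (alternatingGroup α) ∣ (Nat.card (alternatingGroup α ⧸ K)).factorial := by
      have := Subgroup.card_dvd_of_injective _ (CfsgLib.H29.Dickson.toPermHom_injective hKtop)
      rwa [Nat.card_perm] at this
    rw [hA, ← Subgroup.index_eq_card] at hdvd
    have h6 : 6 ≤ K.index := by
      by_contra hlt
      have h5 : K.index ≤ 5 := by omega
      have := hdvd.trans (Nat.factorial_dvd_factorial h5)
      norm_num [Nat.factorial] at this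
    rw [hl] at hmul
    have hl1 : l ≠ 1 := fun e => card_ne_thirty hns' (by rw [hl, e])
    have hl0 : l ≠ 0 := fun e => by rw [e] at hmul; simp at hmul
    have hl2 : l ≤ 2 := by
      by_contra hlt
      have h3 : 30 * 3 * K.index ≤ 30 * l * K.index := Nat.mul_le_mul_right _ (by omega)
      omega
    obtain rfl : l = 2 := by omega
    exact ⟨hl, by omega⟩
  -- the five cosets other than the base one
  have hGle : Nat.card G = 60 ∨ Nat.card G = 120 := by
    let g : G →* ℤˣ := Perm.sign.comp f
    have he : Nat.card g.ker = 60 := by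
      rw [← hcardK.1]
      refine Nat.card_congr (Equiv.ofBijective
        (fun x : g.ker => (⟨⟨f x, Perm.mem_alternatingGroup.mpr x.2⟩, ⟨(x : G), rfl⟩⟩ : K))
        ⟨fun a b e => Subtype.ext (hf (congrArg (fun z : K => ((z : alternatingGroup α) : Perm α)) e)), ?_⟩)
      rintro ⟨⟨y, hy⟩, hy'⟩
      obtain ⟨x, hx⟩ := MonoidHom.mem_range.mp (hy' : y ∈ f.range)
      exact ⟨⟨x, Perm.mem_alternatingGroup.mp (hx ▸ hy)⟩, Subtype.ext (Subtype.ext hx)⟩
    have hi := g.ker.card_mul_index
    rw [he, Subgroup.index_ker] at hi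
    have h2 : Nat.card g.range ∣ 2 := by
      refine (Subgroup.card_subgroup_dvd_card g.range).trans ?_
      rw [Nat.card_eq_fintype_card, Fintype.card_units_int]
    rcases (Nat.dvd_prime Nat.prime_two).mp h2 with e | e <;> rw [e] at hi <;> omega
  set U := f.range with hU
  have hUcard : Nat.card U = Nat.card G := Nat.card_congr (MonoidHom.ofInjective hf).symm.toEquiv
  -- enlarge to the index-six subgroup of `alternatingGroup α` or `Perm α`
  have hns5 : ∀ (A : Type _) [Group A] [Finite A] (V : Subgroup A), V.index = 6 →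
      Group.IsSolvable V.normalCore → (G ≃* V) → Nonempty (G ≃* alternatingGroup (Fin 5)) ∨ Nonempty (G ≃* Perm (Fin 5)) := by
    intro A _ _ V hV hcore e
    letI := Fintype.ofFinite A
    let β := {q : A ⧸ V // q ≠ ((1 : A) : A ⧸ V)}
    have hfix : ∀ v : V, ∀ q : A ⧸ V, (q ≠ ((1 : A) : A ⧸ V)) ↔ ((v : A) • q ≠ ((1 : A) : A ⧸ V)) := fun v q => by
      have hv : (v : A) • ((1 : A) : A ⧸ V) = ((1 : A) : A ⧸ V) := by
        show (((v : A) * 1 : A) : A ⧸ V) = _
        rw [mul_one, QuotientGroup.eq, mul_one]
        exact V.inv_mem v.2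
      constructor
      · intro h1 h2
        exact h1 (MulAction.injective (v : A) (h2.trans hv.symm))
      · intro h1 h2
        exact h1 (by rw [h2, hv])
    let t : V →* Perm β := MonoidHom.mk' (fun v => (MulAction.toPerm (v : A)).subtypePerm fun q => (hfix v q).symm)
      (fun a b => Equiv.ext fun q => Subtype.ext (mul_smul (a : A) (b : A) (q : A ⧸ V)))
    have hker : (t.ker) = ⊥ := by
      have hn : (t.ker.map V.subtype) ≤ V.normalCore := by
        rintro _ ⟨v, hv, rfl⟩
        rw [Subgroup.normalCore_eq_ker]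
        refine MonoidHom.mem_ker.mpr (Equiv.ext fun q => ?_)
        by_cases hq : q = ((1 : A) : A ⧸ V)
        · subst hq
          show (v : A) • ((1 : A) : A ⧸ V) = _
          by_contra hne
          exact ((hfix v _).mpr hne) rfl
        · exact congrArg Subtype.val (DFunLike.congr_fun (MonoidHom.mem_ker.mp hv) (⟨q, hq⟩ : β))
      haveI := hcore
      haveI hsol : Group.IsSolvable t.ker := Group.isSolvable_of_isSolvable_injective
        (f := (V.subtype.comp t.ker.subtype).codRestrict V.normalCore (fun x => hn (Subgroup.mem_map_of_mem _ x.2)))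
        (fun a b h => by
          have h1 := congrArg Subtype.val h
          exact Subtype.ext (Subtype.ext h1))
      haveI : Group.IsSolvable (t.ker.comap e.toMonoidHom) :=
        Group.isSolvable_of_isSolvable_injective (f := (e.toMonoidHom.comp (t.ker.comap e.toMonoidHom).subtype).codRestrict t.ker
          (fun x => x.2)) (fun a b h => Subtype.ext (e.injective (congrArg Subtype.val h)))
      have := h.eq_bot_of_solvable (t.ker.comap e.toMonoidHom)
      rw [← Subgroup.map_comap_eq_self_of_surjective (f := e.toMonoidHom) e.surjective t.ker, this, Subgroup.map_bot]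
    have hβ : Fintype.card β = 5 := by
      rw [Fintype.card_subtype_compl, Fintype.card_subtype_eq, ← Nat.card_eq_fintype_card, ← Subgroup.index_eq_card, hV]
    exact five_cases hβ hns (t.comp e.toMonoidHom) (((MonoidHom.ker_eq_bot_iff t).mp hker).comp e.injective)
  have hKbot : K.normalCore = ⊥ :=
    (K.normalCore_normal.eq_bot_or_eq_top).resolve_right fun e => hKtop (top_le_iff.mp (e ▸ K.normalCore_le))
  have hcoreK : Group.IsSolvable K.normalCore := by rw [hKbot]; infer_instance
  have hcoreU : Group.IsSolvable U.normalCore := by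
    have hsub : U.normalCore.subgroupOf (alternatingGroup α) = ⊥ := by
      rw [eq_bot_iff, ← hKbot, Subgroup.normal_le_normalCore]
      exact fun x hx => U.normalCore_le hx
    refine Group.isSolvable_of_comm fun a b => ?_
    have hinj : Function.Injective (Perm.sign.comp U.normalCore.subtype) := by
      rw [injective_iff_map_eq_one]
      intro x hx
      have : (⟨(x : Perm α), Perm.mem_alternatingGroup.mpr hx⟩ : alternatingGroup α) ∈
          U.normalCore.subgroupOf (alternatingGroup α) := x.2
      rw [hsub, Subgroup.mem_bot] at this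
      exact Subtype.ext (congrArg (fun z : alternatingGroup α => (z : Perm α)) this)
    exact hinj (by rw [map_mul, map_mul, mul_comm])
  rcases hGle with hc | hc
  · have hle : U ≤ alternatingGroup α := by
      intro y hy
      have h1 := Subgroup.card_dvd_of_le (inf_le_left : U ⊓ alternatingGroup α ≤ U)
      have h2 : Nat.card (U ⊓ alternatingGroup α : Subgroup (Perm α)) = Nat.card U := by
        rw [hUcard, hc, ← hcardK.1]
        refine Nat.card_congr ?_
        exact
          { toFun := fun x => ⟨⟨x.1, x.2.2⟩, x.2.1⟩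
            invFun := fun x => ⟨x.1.1, x.2, x.1.2⟩
            left_inv := fun _ => rfl
            right_inv := fun _ => rfl }
      have h3 := Subgroup.eq_of_le_of_card_ge (inf_le_left : U ⊓ alternatingGroup α ≤ U) h2.ge
      rw [← h3] at hy
      exact hy.2
    exact (hns5 (alternatingGroup α) K hcardK.2 hcoreK
      ((MonoidHom.ofInjective hf).trans (Subgroup.subgroupOfEquivOfLe hle).symm)).imp_right Or.inl
  · refine (hns5 (Perm α) U ?_ hcoreU (MonoidHom.ofInjective hf)).imp_right Or.inl
    have := U.card_mul_index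
    rw [hUcard, hc, Nat.card_perm, Nat.card_eq_fintype_card, hα] at this
    norm_num [Nat.factorial] at this
    omega

end CfsgLib.A8GL4
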