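import Cfsg.Agent.PCore.Basic
import Cfsg.Agent.PCore.PSolvable
import Cfsg.Agent.CharBasics.Burnside

/-! Groups without non-trivial solvable normal subgroups; small solvable groups. -/

set_option autoImplicit false

namespace CfsgLib.A8GL4

variable {G : Type*} [Group G] [Finite G]

/-- both cores at the prime 2 are trivial -/
def TrivCores (G : Type*) [Group G] : Prop := Cfsg.pCore 2 G = ⊥ ∧ Cfsg.pPrimeCore 2 G = ⊥

theorem TrivCores.normal (h : TrivCores G) (N : Subgroup G) [N.Normal] : TrivCores N := by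
  constructor
  · refine (Subgroup.map_eq_bot_iff_of_injective _ N.subtype_injective).mp ?_
    rw [CfsgLib.PCore.map_pCore_normal, h.1, bot_inf_eq]
  · refine (Subgroup.map_eq_bot_iff_of_injective _ N.subtype_injective).mp ?_
    rw [CfsgLib.PCore.map_pPrimeCore_normal, h.2, bot_inf_eq]

theorem TrivCores.eq_bot_of_solvable (h : TrivCores G) (N : Subgroup G) [N.Normal] [Group.IsSolvable N] :
    N = ⊥ := by
  haveI : Fact (Nat.Prime 2) := ⟨Nat.prime_two⟩
  by_contra hN
  haveI : Nontrivial N := (Subgroup.nontrivial_iff_ne_bot N).mpr hN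
  rcases CfsgLib.PCore.cores_ne_bot_of_isSolvable (p := 2) (G := N) with e | e
  · exact e (h.normal N).1
  · exact e (h.normal N).2

theorem TrivCores.of_equiv {H : Type*} [Group H] [Finite H] (h : TrivCores G) (e : G ≃* H) : TrivCores H :=
  ⟨by rw [← CfsgLib.PCore.map_pCore_equiv e, h.1, Subgroup.map_bot],
   by rw [← CfsgLib.PCore.map_pPrimeCore_equiv e, h.2, Subgroup.map_bot]⟩

/-- a group whose order is `2^a 3^b`, `2^a 7^b`, ... is solvable -/
theorem isSolvable_of_dvd {G : Type*} [Group G] [Finite G] {p q : ℕ} (hp : p.Prime) (hq : q.Prime) {m n : ℕ}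
    (h : Nat.card G ∣ p ^ m * q ^ n) : Group.IsSolvable G :=
  CfsgLib.CharBasics.isSolvable_two_primes p q fun r hr hd => by
    rcases (Nat.Prime.dvd_mul hr).mp (hd.trans h) with e | e
    · exact Or.inl ((Nat.prime_dvd_prime_iff_eq hr hp).mp (hr.dvd_of_dvd_pow e))
    · exact Or.inr ((Nat.prime_dvd_prime_iff_eq hr hq).mp (hr.dvd_of_dvd_pow e))

theorem dvd_twentyfour {n : ℕ} (h : n ≤ 4) : n.factorial ∣ 2 ^ 3 * 3 ^ 1 :=
  (Nat.factorial_dvd_factorial h).trans (dvd_of_eq (by decide))

/-- A group acting faithfully, each point in an invariant set of at most four points, is solvable. -/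
theorem isSolvable_of_small_cover {Ω : Type*} [Finite Ω] (f : G →* Equiv.Perm Ω) (hf : Function.Injective f)
    (S : Ω → Set Ω) (hx : ∀ x, x ∈ S x) (hS : ∀ x, ∀ g : G, ∀ y, y ∈ S x → f g y ∈ S x)
    (hc : ∀ x, Nat.card (S x) ≤ 4) : Group.IsSolvable G := by
  classical
  have key : ∀ x, ∃ n, ∀ g ∈ derivedSeries G n, f g x = x := by
    intro x
    let r : G →* Equiv.Perm (S x) :=
      MonoidHom.mk' (fun g => (f g).subtypePerm (fun y => ⟨fun hy => by
          have := hS x g⁻¹ _ hy
          rwa [map_inv, Equiv.Perm.inv_def, Equiv.symm_apply_apply] at this,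
        fun hy => hS x g y hy⟩))
        (fun a b => Equiv.ext fun y => Subtype.ext (show f (a * b) y = f a (f b y) by rw [map_mul]; rfl))
    haveI : Group.IsSolvable r.range := isSolvable_of_dvd Nat.prime_two Nat.prime_three (m := 3) (n := 1) (by
      refine (Subgroup.card_subgroup_dvd_card r.range).trans ?_
      rw [Nat.card_perm]
      exact dvd_twentyfour (hc x))
    obtain ⟨n, hn⟩ := Group.IsSolvable.solvable (G := r.range)
    refine ⟨n, fun g hg => ?_⟩
    have h1 := map_derivedSeries_le_derivedSeries r.rangeRestrict n (Subgroup.mem_map_of_mem _ hg)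
    rw [hn, Subgroup.mem_bot] at h1
    have h2 := congrArg Subtype.val h1
    exact congrArg Subtype.val (DFunLike.congr_fun h2 (⟨x, hx x⟩ : S x))
  choose n hn using key
  letI := Fintype.ofFinite Ω
  refine ⟨⟨Finset.univ.sup n, ?_⟩⟩
  rw [Subgroup.eq_bot_iff_forall]
  intro g hg
  apply hf
  rw [map_one]
  refine Equiv.ext fun x => ?_
  exact hn x g (derivedSeries_antitone G (Finset.le_sup (Finset.mem_univ x)) hg)

end CfsgLib.A8GL4
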