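import Cfsg.Agent.A8GL4.Degree

/-! Subgroups of `A₈` with trivial cores. -/

set_option autoImplicit false

namespace CfsgLib.A8GL4

open Equiv
open scoped Pointwise

set_option maxHeartbeats 4000000

variable {G : Type*} [Group G] [Finite G]

theorem zmod2 : ∀ c : ZMod 2, c = 0 ∨ c = 1 := by decide

theorem card_GL3 : Nat.card (GL (Fin 3) (ZMod 2)) = 168 := by
  haveI : Fact (Nat.Prime 2) := ⟨Nat.prime_two⟩
  rw [Matrix.card_GL_field, ZMod.card, Fin.prod_univ_three]
  rfl

theorem isSimple_GL3 : IsSimpleGroup (GL (Fin 3) (ZMod 2)) := by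
  haveI : Fact (Nat.Prime 2) := ⟨Nat.prime_two⟩
  haveI := CfsgLib.SLn.isSimpleGroup_PSL (ι := Fin 3) (F := ZMod 2) (Or.inl (by simp))
  have hc : Subgroup.center (Matrix.SpecialLinearGroup (Fin 3) (ZMod 2)) = ⊥ := by
    apply Subgroup.eq_bot_of_card_eq
    rw [CfsgLib.SLn.card_center_SL (ZMod 2) 3 (by norm_num), ZMod.card]
    rfl
  haveI : IsSimpleGroup (Matrix.SpecialLinearGroup (Fin 3) (ZMod 2)) :=
    (((QuotientGroup.quotientMulEquivOfEq hc).trans QuotientGroup.quotientBot).symm).isSimpleGroup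
  have hbij : Function.Bijective
      (Matrix.SpecialLinearGroup.toGL : Matrix.SpecialLinearGroup (Fin 3) (ZMod 2) →* GL (Fin 3) (ZMod 2)) := by
    refine ⟨fun a b h => Subtype.ext (congrArg Units.val h), fun g => ?_⟩
    rcases zmod2 (g : Matrix (Fin 3) (Fin 3) (ZMod 2)).det with h | h
    · exact absurd h (IsUnit.ne_zero ((Matrix.isUnit_iff_isUnit_det _).mp g.isUnit))
    · exact ⟨⟨_, h⟩, Units.ext rfl⟩
  exact (MulEquiv.ofBijective _ hbij).symm.isSimpleGroup

theorem iso_GL3 [IsSimpleGroup G] (h : Nat.card G = 168) : Nonempty (G ≃* GL (Fin 3) (ZMod 2)) := by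
  haveI := isSimple_GL3
  obtain ⟨a⟩ := CfsgLib.L168.nonempty_iso h
  obtain ⟨b⟩ := CfsgLib.L168.nonempty_iso card_GL3
  exact ⟨a.symm.trans b⟩

theorem seven_cases {α : Type*} [Fintype α] [DecidableEq α] (hα : Fintype.card α = 7) (hns : ¬ Group.IsSolvable G)
    (f : G →* Perm α) (hf : Function.Injective f) [MulAction.IsPretransitive f.range α]
    (hev : ∀ g, f g ∈ alternatingGroup α) :
    Nonempty (G ≃* alternatingGroup (Fin 7)) ∨ Nonempty (G ≃* GL (Fin 3) (ZMod 2)) := by
  let e := MonoidHom.ofInjective hf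
  have hns' : ¬ Group.IsSolvable f.range := fun hs =>
    hns (Group.isSolvable_of_isSolvable_injective (f := e.toMonoidHom) e.injective)
  by_cases hA : alternatingGroup α ≤ f.range
  · left
    have heq : f.range = alternatingGroup α := le_antisymm (by rintro _ ⟨g, rfl⟩; exact hev g) hA
    refine CfsgLib.H29.Dickson.iso_alternating_of_injective hα f hf ?_
    rw [Nat.card_congr e.toEquiv, heq]
    haveI : Nontrivial α := Fintype.one_lt_card_iff_nontrivial.mp (by omega)
    rw [two_mul_nat_card_alternatingGroup, Nat.card_perm, Nat.card_eq_fintype_card, hα]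
  · right
    obtain ⟨hc, hs⟩ := CfsgLib.PrimeDegree.simple_seven hα f.range hns' hA
    haveI := hs
    obtain ⟨e'⟩ := iso_GL3 hc
    exact ⟨e.trans e'⟩

abbrev S8 := Perm (Fin 8)

/-- the standard seven-cycle -/
def s7 : S8 := List.formPerm [0, 1, 2, 3, 4, 5, 6]

/-- a reflection of the seven-cycle -/
def r7 : S8 := Function.Involutive.toPerm ![0, 6, 5, 4, 3, 2, 1, 7] (fun x => by revert x; decide)

theorem s7_fix : ∀ x : Fin 8, s7 x = x → x = 7 := by decide

theorem s7_reach : ∀ x : Fin 8, x = 7 ∨ (s7 ^ (x : ℕ)) 0 = x := by decide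

theorem r7_spec : r7 * s7 * r7⁻¹ = s7⁻¹ ∧ Perm.sign r7 = -1 ∧ Perm.sign s7 = 1 := by decide +kernel

theorem s7_seven : orderOf s7 = 7 ∧ ∀ x : Fin 8, x ≠ 7 → s7 x ≠ 7 := by
  refine ⟨?_, by decide⟩
  haveI : Fact (Nat.Prime 7) := ⟨by norm_num⟩
  exact orderOf_eq_prime (by decide +kernel) (by decide +kernel)

theorem mem_zpowers_s7 {c : S8} (h : Commute c s7) : c ∈ Subgroup.zpowers s7 := by
  have happ : ∀ (k : ℕ) x, c ((s7 ^ k) x) = (s7 ^ k) (c x) := fun k x => DFunLike.congr_fun (h.pow_right k).eq x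
  have h7 : c 7 = 7 := s7_fix _ (by
    have h1 := happ 1 7
    rw [pow_one] at h1
    rw [← h1]
    congr 1)
  have h0 : c 0 ≠ 7 := fun e => absurd (c.injective (e.trans h7.symm)) (by decide)
  obtain ⟨j, hj⟩ : ∃ j : ℕ, c 0 = (s7 ^ j) 0 := ⟨_, ((s7_reach (c 0)).resolve_left h0).symm⟩
  refine ⟨(j : ℤ), ?_⟩
  show s7 ^ (j : ℤ) = c
  rw [zpow_natCast]
  refine Equiv.ext fun x => ?_
  rcases s7_reach x with rfl | hx
  · rw [h7]
    exact Equiv.Perm.pow_apply_eq_self_of_apply_eq_self (by decide) j
  · rw [← hx, happ, hj, ← Perm.mul_apply, ← Perm.mul_apply, ← pow_add, ← pow_add, add_comm]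

theorem not_inverts {x : S8} (hx : Perm.sign x = 1) : x * s7 * x⁻¹ ≠ s7⁻¹ := by
  intro h
  obtain ⟨k, hk⟩ := mem_zpowers_s7 (c := r7⁻¹ * x) (by
    show r7⁻¹ * x * s7 = s7 * (r7⁻¹ * x)
    calc r7⁻¹ * x * s7 = r7⁻¹ * (x * s7 * x⁻¹) * x := by group
      _ = r7⁻¹ * (r7 * s7 * r7⁻¹) * x := by rw [h, r7_spec.1]
      _ = _ := by group)
  have := congrArg Perm.sign hk
  simp only [map_zpow, map_mul, map_inv, r7_spec.2.1, r7_spec.2.2, hx, one_zpow] at this
  exact absurd this (by decide)

/-- elements of order seven of `A₈` have centralizer of order seven, and are not conjugate to their inverses. -/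
theorem seven_facts {s : S8} (hs : orderOf s = 7) :
    (∀ c, Commute c s → c ∈ Subgroup.zpowers s) ∧ (∀ x, Perm.sign x = 1 → x * s * x⁻¹ ≠ s⁻¹) := by
  haveI : Fact (Nat.Prime 7) := ⟨by norm_num⟩
  obtain ⟨g, hg⟩ : IsConj s7 s := by
    have h1 : ∀ t : S8, orderOf t = 7 → t.cycleType = {7} := by
      intro t ht
      obtain ⟨m, hm⟩ := Perm.cycleType_prime_order (ht ▸ (by norm_num : Nat.Prime 7) : (orderOf t).Prime)
      have h := Perm.sum_cycleType t
      rw [hm, ht, Multiset.sum_replicate, smul_eq_mul] at h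
      have h8 := Finset.card_le_univ t.support
      rw [Fintype.card_fin, ← h] at h8
      obtain rfl : m = 0 := by omega
      rw [hm, ht]; rfl
    rw [Perm.isConj_iff_cycleType_eq, h1 s hs, h1 s7 s7_seven.1]
  have hg' : s = (g : S8) * s7 * (g : S8)⁻¹ := eq_mul_inv_iff_mul_eq.mpr hg.eq.symm
  refine ⟨fun c hc => ?_, fun x hx h => ?_⟩
  · obtain ⟨k, hk⟩ := mem_zpowers_s7 (c := (g : S8)⁻¹ * c * (g : S8)) (by
      show (g : S8)⁻¹ * c * g * s7 = s7 * ((g : S8)⁻¹ * c * g)
      calc (g : S8)⁻¹ * c * g * s7 = (g : S8)⁻¹ * (c * ((g : S8) * s7 * (g : S8)⁻¹)) * g := by group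
        _ = (g : S8)⁻¹ * ((g : S8) * s7 * (g : S8)⁻¹ * c) * g := by rw [← hg', hc.eq]
        _ = _ := by group)
    refine ⟨k, ?_⟩
    change s ^ k = c
    change s7 ^ k = _ at hk
    rw [hg', conj_zpow, hk]; group
  · refine not_inverts (x := (g : S8)⁻¹ * x * g) (by simp [hx, mul_comm]) ?_
    calc (g : S8)⁻¹ * x * g * s7 * ((g : S8)⁻¹ * x * g)⁻¹
        = (g : S8)⁻¹ * (x * ((g : S8) * s7 * (g : S8)⁻¹) * x⁻¹) * g := by group
      _ = (g : S8)⁻¹ * ((g : S8) * s7 * (g : S8)⁻¹)⁻¹ * g := by rw [← hg', h]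
      _ = _ := by group

theorem arith_eight : ∀ n : ℕ, n < 193 → n ∣ 192 → n % 7 = 1 → n = 1 ∨ n = 8 ∨ n = 64 := by decide +kernel

/-- An insoluble transitive subgroup of `A₈` with trivial cores and no element of order five has order 168 or 1344,
and in either case it has eight or sixty-four Sylow 7-subgroups with normalizers of order 21. -/
theorem eight_order (h : TrivCores G) [Nontrivial G] (f : G →* S8) (hf : Function.Injective f)
    (hev : ∀ g, f g ∈ alternatingGroup (Fin 8)) (h8 : 8 ∣ Nat.card G) (h5 : ¬ 5 ∣ Nat.card G) :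
    (Nat.card G = 168 ∨ Nat.card G = 1344) ∧
      ∀ P : Sylow 7 G, Nat.card (Subgroup.normalizer ((P : Subgroup G) : Set G)) = 21 := by
  haveI : Fact (Nat.Prime 7) := ⟨by norm_num⟩
  have hns := nonsolvable h
  have hdvd : Nat.card G ∣ 20160 := by
    have := Subgroup.card_dvd_of_injective (f.codRestrict (alternatingGroup (Fin 8)) hev)
      (fun a b e => hf (congrArg Subtype.val e))
    rwa [nat_card_alternatingGroup, Nat.card_eq_fintype_card (α := Fin 8), Fintype.card_fin] at this
  have h4032 : Nat.card G ∣ 4032 := by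
    refine (Nat.Coprime.dvd_of_dvd_mul_left ?_ (show Nat.card G ∣ 5 * 4032 from hdvd))
    exact ((Nat.prime_five.coprime_iff_not_dvd).mpr h5).symm
  have h7 : 7 ∣ Nat.card G := by
    by_contra h7
    refine hns (isSolvable_of_dvd Nat.prime_two Nat.prime_three (m := 6) (n := 2) ?_)
    exact Nat.Coprime.dvd_of_dvd_mul_left (((by norm_num : Nat.Prime 7).coprime_iff_not_dvd).mpr h7).symm
      (show Nat.card G ∣ 7 * (2 ^ 6 * 3 ^ 2) from h4032)
  have hN : ∀ P : Sylow 7 G, Nat.card (Subgroup.normalizer ((P : Subgroup G) : Set G)) = 21 := by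
    intro P
    have hP : Nat.card (P : Subgroup G) = 7 := by
      obtain ⟨k, hk⟩ := IsPGroup.iff_card.mp P.isPGroup'
      have h1 := P.dvd_card_of_dvd_card h7
      have h2 : 7 ^ k ∣ 4032 := hk ▸ (Subgroup.card_subgroup_dvd_card _).trans h4032
      rcases (show k = 0 ∨ k = 1 ∨ 2 ≤ k by omega) with rfl | rfl | h2'
      · rw [hk] at h1; norm_num at h1
      · rw [hk, pow_one]
      · exact absurd ((pow_dvd_pow 7 h2').trans h2) (by norm_num)
    obtain ⟨⟨s, hsP⟩, hs⟩ := exists_prime_orderOf_dvd_card' (G := (P : Subgroup G)) 7 (by rw [hP])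
    rw [Subgroup.orderOf_mk] at hs
    have hPs : (P : Subgroup G) = Subgroup.zpowers s :=
      (Subgroup.eq_of_le_of_card_ge (Subgroup.zpowers_le.mpr hsP) (by rw [Nat.card_zpowers, hs, hP])).symm
    obtain ⟨hcen, hinv⟩ := seven_facts (s := f s) (by rw [orderOf_injective f hf, hs])
    set N := Subgroup.normalizer ((P : Subgroup G) : Set G) with hNdef
    let φ : N →* MulAut (P : Subgroup G) := (P : Subgroup G).normalizerMonoidHom
    have hker : φ.ker = (P : Subgroup G).subgroupOf N := by
      rw [Subgroup.normalizerMonoidHom_ker]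
      ext x
      simp only [Subgroup.mem_subgroupOf]
      constructor
      · intro hx
        have hc : Commute (f x) (f s) := by
          show f x * f s = f s * f x
          rw [← map_mul, ← map_mul, Subgroup.mem_centralizer_iff.mp hx s hsP]
        obtain ⟨k, hk⟩ := hcen _ hc
        rw [hPs]
        exact ⟨k, hf (by rw [map_zpow]; exact hk)⟩
      · intro hx
        rw [hPs] at hx
        obtain ⟨k, hk⟩ := hx
        refine Subgroup.mem_centralizer_iff.mpr fun y hy => ?_
        obtain ⟨j, rfl⟩ := (hPs.le hy : y ∈ Subgroup.zpowers s)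
        rw [← hk]
        exact ((Commute.refl s).zpow_zpow j k).eq
    have hmul := φ.ker.card_mul_index
    rw [Subgroup.index_ker, hker, Nat.card_congr (Subgroup.subgroupOfEquivOfLe Subgroup.le_normalizer).toEquiv,
      hP] at hmul
    haveI hcyc : IsCyclic (P : Subgroup G) := isCyclic_of_prime_card hP
    have haut : Nat.card (MulAut (P : Subgroup G)) = 6 := by
      rw [IsCyclic.card_mulAut, hP]; rfl
    have hd6 : Nat.card φ.range ∣ 6 := haut ▸ Subgroup.card_subgroup_dvd_card φ.range
    have hne1 : Nat.card φ.range ≠ 1 := by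
      intro e
      have hle : N ≤ Subgroup.centralizer ((P : Subgroup G) : Set G) := by
        intro x hx
        have : (⟨x, hx⟩ : N) ∈ φ.ker := by
          rw [MonoidHom.mem_ker]
          have h1 := Subgroup.eq_bot_of_card_eq _ e
          exact Subgroup.mem_bot.mp (h1 ▸ ⟨⟨x, hx⟩, rfl⟩)
        rw [Subgroup.normalizerMonoidHom_ker] at this
        exact this
      obtain ⟨Q, K, hKn, hKc⟩ := CfsgLib.Transfer.burnside_normal_complement P hle
      haveI := hKn
      have hKsol : Group.IsSolvable K := by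
        refine isSolvable_of_dvd Nat.prime_two Nat.prime_three (m := 6) (n := 2) ?_
        have hc := hKc.card_mul
        have hQ : Nat.card (Q : Subgroup G) = 7 := by rw [Q.card_eq_multiplicity, ← P.card_eq_multiplicity, hP]
        rw [hQ] at hc
        exact Nat.dvd_of_mul_dvd_mul_right (show 0 < 7 by norm_num)
          (show Nat.card K * 7 ∣ 2 ^ 6 * 3 ^ 2 * 7 by rw [hc]; exact h4032)
      have hK := h.eq_bot_of_solvable K
      have hc := hKc.card_mul
      rw [hK, Subgroup.card_bot, one_mul] at hc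
      refine hns (isSolvable_of_dvd (G := G) (p := 7) (q := 7) (m := 1) (n := 1) (by norm_num) (by norm_num) ?_)
      rw [← hc]
      exact dvd_mul_of_dvd_left (by
        obtain ⟨k, hk⟩ := IsPGroup.iff_card.mp Q.isPGroup'
        have h2 : 7 ^ k ∣ 4032 := hk ▸ (Subgroup.card_subgroup_dvd_card _).trans h4032
        rw [hk]
        refine pow_dvd_pow 7 ?_
        by_contra h2'
        exact absurd ((pow_dvd_pow 7 (show 2 ≤ k by omega)).trans h2) (by norm_num)) _
    have hodd : ¬ 2 ∣ Nat.card φ.range := by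
      intro h2
      obtain ⟨⟨q, hqm⟩, hq⟩ := exists_prime_orderOf_dvd_card' (G := φ.range) 2 (hp := ⟨Nat.prime_two⟩) h2
      rw [Subgroup.orderOf_mk] at hq
      obtain ⟨x, rfl⟩ := hqm
      refine hinv (f x) (Perm.mem_alternatingGroup.mp (hev _)) ?_
      rw [← map_inv, ← map_mul, ← map_mul, ← map_inv]
      congr 1
      -- the only involution inverts
      have hmem : (x : G) * s * (x : G)⁻¹ ∈ (P : Subgroup G) :=
        (Subgroup.mem_normalizer_iff.mp x.2 s).mp hsP
      have hsgen : ∀ y : (P : Subgroup G), ∃ k : ℤ, y = (⟨s, hsP⟩ : (P : Subgroup G)) ^ k := fun y => by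
        obtain ⟨k, hk⟩ := (hPs ▸ y.2 : (y : G) ∈ Subgroup.zpowers s)
        exact ⟨k, Subtype.ext hk.symm⟩
      obtain ⟨k, hk⟩ := hsgen (φ x ⟨s, hsP⟩)
      have hk2 : (φ x * φ x) ⟨s, hsP⟩ = (⟨s, hsP⟩ : (P : Subgroup G)) ^ (k * k) := by
        rw [MulAut.mul_apply, hk, map_zpow, hk, ← zpow_mul]
      rw [← pow_two, ← hq, pow_orderOf_eq_one, MulAut.one_apply] at hk2
      have hk3 : s ^ (k * k - 1) = 1 := by
        have := congrArg Subtype.val hk2
        simp only [SubgroupClass.coe_zpow] at this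
        rw [zpow_sub, zpow_one, ← this, mul_inv_cancel]
      have h49 : (7 : ℤ) ∣ k * k - 1 := by
        have := orderOf_dvd_iff_zpow_eq_one.mpr hk3
        rwa [hs] at this
      rw [show k * k - 1 = (k - 1) * (k + 1) by ring] at h49
      have hφs : (x : G) * s * (x : G)⁻¹ = s ^ k := by
        have := congrArg Subtype.val hk
        rw [SubgroupClass.coe_zpow] at this
        exact this
      rw [hφs]
      rcases (Int.prime_iff_natAbs_prime.mpr (by norm_num : (7 : ℤ).natAbs.Prime)).dvd_or_dvd h49 with h49 | h49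
      · exfalso
        have h1 : φ x = 1 := by
          apply MulEquiv.ext
          intro y
          obtain ⟨j, rfl⟩ := hsgen y
          rw [map_zpow, hk, MulAut.one_apply]
          congr 1
          apply Subtype.ext
          show s ^ k = s
          have : s ^ (k - 1) = 1 := orderOf_dvd_iff_zpow_eq_one.mp (by rw [hs]; exact h49)
          rw [zpow_sub, zpow_one, mul_inv_eq_one] at this
          exact this
        rw [h1, orderOf_one] at hq
        exact absurd hq (by norm_num)
      · have : s ^ (k + 1) = 1 := orderOf_dvd_iff_zpow_eq_one.mp (by rw [hs]; exact h49)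
        rw [zpow_add, zpow_one] at this
        exact eq_inv_of_mul_eq_one_left this
    have hd3 : Nat.card φ.range = 3 := by
      have := Nat.le_of_dvd (by norm_num) hd6
      interval_cases hc : Nat.card φ.range <;> simp_all (config := { decide := true })
    rw [← hmul, hd3]
  refine ⟨?_, hN⟩
  obtain ⟨P⟩ : Nonempty (Sylow 7 G) := inferInstance
  have hn : Nat.card (Sylow 7 G) = (Subgroup.normalizer ((P : Subgroup G) : Set G)).index := P.card_eq_index_normalizer
  have hmul := (Subgroup.normalizer ((P : Subgroup G) : Set G)).card_mul_index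
  rw [hN P, ← hn] at hmul
  have hmod : Nat.card (Sylow 7 G) % 7 = 1 := card_sylow_modEq_one 7 G
  have h192 : Nat.card (Sylow 7 G) ∣ 192 :=
    Nat.dvd_of_mul_dvd_mul_left (show 0 < 21 by norm_num) (by rw [hmul]; exact h4032)
  rcases arith_eight _ (Nat.lt_succ_of_le (Nat.le_of_dvd (by norm_num) h192)) h192 hmod with e | e | e <;>
    rw [e] at hmul
  · rw [← hmul] at h8
    norm_num at h8
  · exact Or.inl hmul.symm
  · exact Or.inr hmul.symm

theorem unitri_form (A : M4) (h00 : A 0 0 = 1) (hi0 : ∀ i : Fin 3, A i.succ 0 = 0)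
    (hsh : ∀ i j : Fin 3, A i.succ j.succ = (1 : Matrix (Fin 3) (Fin 3) (ZMod 2)) i j) :
    A = !![1, A 0 1, A 0 2, A 0 3; 0, 1, 0, 0; 0, 0, 1, 0; 0, 0, 0, 1] := by
  ext i j
  fin_cases i <;> fin_cases j <;> first
    | exact h00 | exact hi0 0 | exact hi0 1 | exact hi0 2 | rfl
    | exact hsh 0 0 | exact hsh 0 1 | exact hsh 0 2 | exact hsh 1 0 | exact hsh 1 1
    | exact hsh 1 2 | exact hsh 2 0 | exact hsh 2 1 | exact hsh 2 2

theorem unitri_comm (A B : M4) (hA0 : A 0 0 = 1) (hA1 : ∀ i : Fin 3, A i.succ 0 = 0)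
    (hA2 : ∀ i j : Fin 3, A i.succ j.succ = (1 : Matrix (Fin 3) (Fin 3) (ZMod 2)) i j) (hB0 : B 0 0 = 1)
    (hB1 : ∀ i : Fin 3, B i.succ 0 = 0)
    (hB2 : ∀ i j : Fin 3, B i.succ j.succ = (1 : Matrix (Fin 3) (Fin 3) (ZMod 2)) i j) : A * B = B * A := by
  rw [unitri_form A hA0 hA1 hA2, unitri_form B hB0 hB1 hB2]
  ext i j
  fin_cases i <;> fin_cases j <;> simp [Matrix.mul_apply, Fin.sum_univ_four, add_comm]

theorem not_simple_1344 [IsSimpleGroup G] (h : Nat.card G = 1344)
    (f : G →* Matrix.SpecialLinearGroup (Fin 4) (ZMod 2)) (hf : Function.Injective f) : False := by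
  classical
  haveI : Fact (Nat.Prime 2) := ⟨Nat.prime_two⟩
  letI : MulAction G (Fin 4 → ZMod 2) := MulAction.compHom _ f
  have hnp : ¬ (Nat.card G).Prime := by rw [h]; norm_num
  have hnc : ¬ ∀ a b : G, a * b = b * a := fun hc => by
    letI : CommGroup G := { (inferInstance : Group G) with mul_comm := hc }
    exact hnp IsSimpleGroup.prime_card
  obtain ⟨v, hv0, hv⟩ : ∃ v : Fin 4 → ZMod 2, v ≠ 0 ∧ ∀ g : G, g • v = v := by
    by_contra hcon
    push Not at hcon
    have hz : ∀ g : G, g • (0 : Fin 4 → ZMod 2) = 0 := fun g => smul_zero (f g)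
    have horb : ∀ v : Fin 4 → ZMod 2, v ≠ 0 →
        8 ≤ Nat.card (MulAction.orbit G v) ∧ Nat.card (MulAction.orbit G v) ∣ 1344 := by
      intro v hv
      refine ⟨?_, ?_⟩
      · let t := MulAction.toPermHom G (MulAction.orbit G v)
        have ht : t.ker ≠ ⊤ := fun e => by
          obtain ⟨g, hg⟩ := hcon v hv
          have h1 := DFunLike.congr_fun (MonoidHom.mem_ker.mp (e ▸ Subgroup.mem_top g : g ∈ t.ker))
            (⟨v, MulAction.mem_orbit_self v⟩ : MulAction.orbit G v)
          exact hg (congrArg Subtype.val h1)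
        have hd := Subgroup.card_dvd_of_injective t
          ((MonoidHom.ker_eq_bot_iff t).mp ((t.normal_ker.eq_bot_or_eq_top).resolve_right ht))
        rw [h, Nat.card_perm] at hd
        by_contra hlt
        have := hd.trans (Nat.factorial_dvd_factorial (show Nat.card (MulAction.orbit G v) ≤ 7 by omega))
        norm_num [Nat.factorial] at this
      · rw [← h, Nat.card_coe_set_eq, ← MulAction.index_stabilizer]
        exact Subgroup.index_dvd_card _
    have hsub : ∀ v : Fin 4 → ZMod 2, v ≠ 0 → MulAction.orbit G v ⊆ {w | w ≠ 0} := by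
      rintro v hv _ ⟨g, rfl⟩ e
      exact hv (MulAction.injective g (e.trans (hz g).symm))
    have h15 : Nat.card ({w : Fin 4 → ZMod 2 | w ≠ 0} : Set (Fin 4 → ZMod 2)) = 15 := by
      rw [Nat.card_coe_set_eq, show {w : Fin 4 → ZMod 2 | w ≠ 0} = {0}ᶜ from rfl, Set.ncard_compl,
        Set.ncard_singleton, Nat.card_fun, Nat.card_zmod, Nat.card_fin]
      norm_num
    obtain ⟨v, hv⟩ : ∃ v : Fin 4 → ZMod 2, v ≠ 0 := exists_ne 0
    by_cases hall : ∀ w : Fin 4 → ZMod 2, w ≠ 0 → w ∈ MulAction.orbit G v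
    · have e : Nat.card (MulAction.orbit G v) = 15 := by
        rw [Set.Subset.antisymm (hsub v hv) hall, h15]
      have := (horb v hv).2
      rw [e] at this
      norm_num at this
    · push Not at hall
      obtain ⟨w, hw, hwv⟩ := hall
      have hdisj : Disjoint (MulAction.orbit G v) (MulAction.orbit G w) := by
        rw [Set.disjoint_left]
        intro u hu hu'
        exact hwv (by rw [← MulAction.orbit_eq_iff.mpr hu, MulAction.orbit_eq_iff.mpr hu']; exact MulAction.mem_orbit_self w)
      have := Set.ncard_union_eq hdisj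
      have hle := Set.ncard_le_ncard (Set.union_subset (hsub v hv) (hsub w hw))
      rw [← Nat.card_coe_set_eq, ← Nat.card_coe_set_eq {w : Fin 4 → ZMod 2 | w ≠ 0}, h15] at hle
      rw [← Nat.card_coe_set_eq, ← Nat.card_coe_set_eq, ← Nat.card_coe_set_eq] at this
      have := (horb v hv).1
      have := (horb w hw).1
      omega
  obtain ⟨g, hg⟩ := CfsgLib.SLn.exists_smul_eq (F := ZMod 2) hv0
    (Pi.single_ne_zero_iff.mpr one_ne_zero : (Pi.single (0 : Fin 4) (1 : ZMod 2)) ≠ 0)
  let k : G →* Matrix.SpecialLinearGroup (Fin 4) (ZMod 2) :=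
    (MulAut.conj g).toMonoidHom.comp f
  have hkinj : Function.Injective k := (MulAut.conj g).injective.comp hf
  have hcol : ∀ (x : G) (i : Fin 4), (k x : M4) i 0 = (Pi.single (0 : Fin 4) (1 : ZMod 2) : Fin 4 → ZMod 2) i := by
    intro x i
    have h1 : (g * f x * g⁻¹) • (Pi.single (0 : Fin 4) (1 : ZMod 2) : Fin 4 → ZMod 2) = Pi.single 0 1 := by
      rw [← hg, mul_smul, inv_smul_smul, mul_smul, show f x • v = v from hv x]
    rw [Matrix.SpecialLinearGroup.smul_def] at h1
    have := congrFun h1 i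
    simp [k, MulAut.conj_apply, Matrix.mulVec_single_one] at this ⊢
    exact this
  let m : G →* Matrix (Fin 3) (Fin 3) (ZMod 2) :=
    { toFun := fun x => (k x : M4).submatrix Fin.succ Fin.succ
      map_one' := by
        rw [map_one, Matrix.SpecialLinearGroup.coe_one]
        exact Matrix.submatrix_one _ (Fin.succ_injective _)
      map_mul' := fun x y => by
        ext i j
        rw [map_mul, Matrix.SpecialLinearGroup.coe_mul, Matrix.submatrix_apply, Matrix.mul_apply, Fin.sum_univ_succ,
          hcol x (Fin.succ i), Pi.single_eq_of_ne (Fin.succ_ne_zero i), zero_mul, zero_add]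
        rfl }
  let q : G →* GL (Fin 3) (ZMod 2) := m.toHomUnits
  rcases q.normal_ker.eq_bot_or_eq_top with hk | hk
  · have := Subgroup.card_dvd_of_injective q ((MonoidHom.ker_eq_bot_iff q).mp hk)
    rw [h, card_GL3] at this
    norm_num at this
  · refine hnc fun a b => hkinj (Subtype.ext ?_)
    have hsh : ∀ (x : G) (i j : Fin 3), (k x : M4) i.succ j.succ = (1 : Matrix (Fin 3) (Fin 3) (ZMod 2)) i j := by
      intro x i j
      have h1 := congrArg Units.val (MonoidHom.mem_ker.mp (hk ▸ Subgroup.mem_top x : x ∈ q.ker))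
      exact congrFun (congrFun h1 i) j
    have h00 : ∀ x : G, (k x : M4) 0 0 = 1 := fun x => by rw [hcol x 0, Pi.single_eq_same]
    have hi0 : ∀ (x : G) (i : Fin 3), (k x : M4) i.succ 0 = 0 := fun x i => by
      rw [hcol x i.succ, Pi.single_eq_of_ne (Fin.succ_ne_zero i)]
    rw [map_mul, map_mul, Matrix.SpecialLinearGroup.coe_mul, Matrix.SpecialLinearGroup.coe_mul]
    exact unitri_comm _ _ (h00 a) (hi0 a) (hsh a) (h00 b) (hi0 b) (hsh b)

theorem eight_cases (h : TrivCores G) [Nontrivial G] (f : G →* S8) (hf : Function.Injective f)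
    [MulAction.IsPretransitive f.range (Fin 8)] (hev : ∀ g, f g ∈ alternatingGroup (Fin 8)) :
    Nonempty (G ≃* alternatingGroup (Fin 8)) ∨ Nonempty (G ≃* GL (Fin 3) (ZMod 2)) := by
  classical
  have hns := nonsolvable h
  let e := MonoidHom.ofInjective hf
  have hns' : ¬ Group.IsSolvable f.range := fun hs =>
    hns (Group.isSolvable_of_isSolvable_injective (f := e.toMonoidHom) e.injective)
  haveI hprim : MulAction.IsPreprimitive f.range (Fin 8) := by
    refine ⟨fun {B} hB => ?_⟩
    by_contra hnt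
    rw [MulAction.IsTrivialBlock, not_or] at hnt
    obtain ⟨hns1, hnu⟩ := hnt
    have hne : B.Nonempty := by
      by_contra he
      exact hns1 (by rw [Set.not_nonempty_iff_eq_empty.mp he]; exact Set.subsingleton_empty)
    have hcard := hB.ncard_block_mul_ncard_orbit_eq hne
    rw [Nat.card_eq_fintype_card, Fintype.card_fin] at hcard
    have h2 : 2 ≤ B.ncard := by
      by_contra hlt
      exact hns1 (Set.ncard_le_one_iff_subsingleton.mp (by omega))
    have h8 : B.ncard ≠ 8 := fun e8 => hnu
      ((Set.eq_univ_iff_ncard B).mpr (by rw [e8, Nat.card_eq_fintype_card, Fintype.card_fin]))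
    have hB4 : B.ncard ≤ 4 := by
      have := Nat.le_of_dvd (by norm_num) (Dvd.intro _ hcard)
      have hd : B.ncard ∣ 8 := Dvd.intro _ hcard
      interval_cases hB' : B.ncard <;> first | omega | norm_num at hd
    have horb : (MulAction.orbit f.range B).ncard ≤ 4 := by
      have h3 : 2 * (MulAction.orbit f.range B).ncard ≤ B.ncard * (MulAction.orbit f.range B).ncard :=
        Nat.mul_le_mul_right _ h2
      omega
    let t : f.range →* Perm (MulAction.orbit f.range B) := MulAction.toPermHom _ _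
    haveI : Group.IsSolvable t.range := isSolvable_of_dvd Nat.prime_two Nat.prime_three (m := 3) (n := 1) (by
      refine (Subgroup.card_subgroup_dvd_card t.range).trans ?_
      rw [Nat.card_perm, Nat.card_coe_set_eq]
      exact dvd_twentyfour horb)
    have hex : ∀ x, ∃ g : f.range, x ∈ g • B := fun x => by
      obtain ⟨b, hb⟩ := hne
      obtain ⟨g, hg⟩ := MulAction.exists_smul_eq f.range b x
      exact ⟨g, hg ▸ Set.smul_mem_smul_set hb⟩
    choose c hc using hex
    haveI : Group.IsSolvable t.ker := isSolvable_of_small_cover (f.range.subtype.comp t.ker.subtype)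
      (fun a b h => Subtype.ext (Subtype.ext h)) (fun x => c x • B) hc
      (fun x g y hy => by
        have h1 := congrArg Subtype.val (DFunLike.congr_fun (MonoidHom.mem_ker.mp g.2)
          (⟨c x • B, ⟨c x, rfl⟩⟩ : MulAction.orbit f.range B))
        have h2 := Set.smul_mem_smul_set (a := (g : f.range)) hy
        rw [show (g : f.range) • (c x • B) = c x • B from h1] at h2
        exact h2)
      (fun x => by rw [Nat.card_coe_set_eq, Set.ncard_smul_set]; exact hB4)
    exact hns' (Group.isSolvable_of_ker_le_range t.ker.subtype t.rangeRestrict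
      (by rw [MonoidHom.ker_rangeRestrict, Subgroup.range_subtype]))
  have hcase : alternatingGroup (Fin 8) ≤ f.range → Nonempty (G ≃* alternatingGroup (Fin 8)) := fun hA => by
    have heq : f.range = alternatingGroup (Fin 8) := le_antisymm (by rintro _ ⟨g, rfl⟩; exact hev g) hA
    exact ⟨e.trans (MulEquiv.subgroupCongr heq)⟩
  by_cases h5 : 5 ∣ Nat.card G
  · left
    obtain ⟨g, hg⟩ := exists_prime_orderOf_dvd_card' (G := G) 5 (hp := ⟨Nat.prime_five⟩) h5
    have hg' : orderOf (f g) = 5 := by rw [orderOf_injective f hf, hg]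
    obtain ⟨m, hm⟩ := Perm.cycleType_prime_order (by rw [hg']; exact Nat.prime_five : (orderOf (f g)).Prime)
    have hsum := Perm.sum_cycleType (f g)
    rw [hm, hg', Multiset.sum_replicate, smul_eq_mul] at hsum
    have h8 := Finset.card_le_univ (f g).support
    rw [Fintype.card_fin, ← hsum] at h8
    obtain rfl : m = 0 := by omega
    refine hcase (CfsgLib.Jordan.alternatingGroup_le_of_prime_cycle f.range hprim Nat.prime_five
      (by simp) ?_ (by rw [← hsum]) ⟨g, rfl⟩)
    rw [← Perm.card_cycleType_eq_one, hm]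
    simp
  right
  have h8 : 8 ∣ Nat.card G := by
    rw [Nat.card_congr e.toEquiv]
    have h1 : (MulAction.orbit f.range (0 : Fin 8)).ncard = 8 := by
      rw [MulAction.orbit_eq_univ, Set.ncard_univ, Nat.card_eq_fintype_card, Fintype.card_fin]
    have h2 := Subgroup.index_dvd_card (MulAction.stabilizer f.range (0 : Fin 8))
    rw [MulAction.index_stabilizer, h1] at h2
    exact h2
  obtain ⟨hord, hN⟩ := eight_order h f hf hev h8 h5
  have key : ∀ N : Subgroup G, N.Normal → N ≠ ⊥ → 8 ∣ Nat.card N := by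
    intro N hN hN1
    haveI : (N.map f.rangeRestrict).Normal := Subgroup.Normal.map hN _ f.rangeRestrict_surjective
    have hne : MulAction.fixedPoints (N.map f.rangeRestrict) (Fin 8) ≠ Set.univ := by
      intro hfix
      apply hN1
      rw [Subgroup.eq_bot_iff_forall]
      intro x hx
      refine hf (Equiv.ext fun a => ?_)
      rw [map_one]
      exact Set.eq_univ_iff_forall.mp hfix a ⟨_, Subgroup.mem_map_of_mem _ hx⟩
    haveI := MulAction.IsQuasiPreprimitive.isPretransitive_of_normal (G := f.range) hne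
    have h1 : (MulAction.orbit (N.map f.rangeRestrict) (0 : Fin 8)).ncard = 8 := by
      rw [MulAction.orbit_eq_univ, Set.ncard_univ, Nat.card_eq_fintype_card, Fintype.card_fin]
    have h2 := Subgroup.index_dvd_card (MulAction.stabilizer (N.map f.rangeRestrict) (0 : Fin 8))
    rw [MulAction.index_stabilizer, h1, Subgroup.card_map_of_injective
      (fun a b h => hf (congrArg Subtype.val h))] at h2
    exact h2
  have hsimple : IsSimpleGroup G := by
    refine ⟨fun N hNn => ?_⟩
    by_cases hN1 : N = ⊥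
    · exact Or.inl hN1
    refine Or.inr ?_
    haveI := hNn
    haveI : Nontrivial N := (Subgroup.nontrivial_iff_ne_bot N).mpr hN1
    have hNt := h.normal N
    have hd := Subgroup.card_subgroup_dvd_card N
    obtain ⟨hordN, hNN⟩ := eight_order hNt (f.comp N.subtype) (hf.comp N.subtype_injective) (fun g => hev g)
      (key N hNn hN1) (fun h5' => h5 (h5'.trans hd))
    haveI : Fact (Nat.Prime 7) := ⟨by norm_num⟩
    obtain ⟨P⟩ : Nonempty (Sylow 7 N) := inferInstance
    have hmap := Sylow.normalizer_sup_eq_top P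
    set M := Subgroup.normalizer (((P : Subgroup N).map N.subtype : Subgroup G) : Set G) with hM
    have hle : M ≤ N := by
      have hP : ¬ 7 ∣ N.index := by
        intro h7
        have hmul := N.card_mul_index
        have : 7 * 7 ∣ Nat.card G := by
          rw [← hmul]
          refine mul_dvd_mul ?_ h7
          rcases hordN with e' | e' <;> rw [e'] <;> norm_num
        rcases hord with e' | e' <;> rw [e'] at this <;> norm_num at this
      obtain ⟨Q, hQ⟩ := ((P.isPGroup'.map N.subtype) : IsPGroup 7 ((P : Subgroup N).map N.subtype)).exists_le_sylow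
      have hQeq : (Q : Subgroup G) = (P : Subgroup N).map N.subtype := by
        refine (Subgroup.eq_of_le_of_card_ge hQ (le_of_eq ?_)).symm
        rw [Subgroup.card_map_of_injective N.subtype_injective]
        rw [Sylow.card_eq_multiplicity, Sylow.card_eq_multiplicity, ← N.card_mul_index,
          Nat.factorization_mul Nat.card_pos.ne' Subgroup.index_ne_zero_of_finite, Finsupp.add_apply,
          Nat.factorization_eq_zero_of_not_dvd hP, add_zero]
      have hM21 : Nat.card M = 21 := by rw [hM, ← hQeq]; exact hN Q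
      have hin : (Subgroup.normalizer ((P : Subgroup N) : Set N)).map N.subtype ≤ M :=
        Subgroup.le_normalizer_map _
      have heq := Subgroup.eq_of_le_of_card_ge hin (by
        rw [hM21, Subgroup.card_map_of_injective N.subtype_injective, hNN P])
      rw [← heq]
      exact Subgroup.map_subtype_le _
    rw [← hmap]
    exact (sup_eq_right.mpr hle).symm
  haveI := hsimple
  rcases hord with h168 | h1344
  · exact iso_GL3 h168
  · exfalso
    obtain ⟨e8⟩ := nonempty_equiv
    exact not_simple_1344 h1344 (e8.symm.toMonoidHom.comp (f.codRestrict (alternatingGroup (Fin 8)) hev))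
      (e8.symm.injective.comp fun a b h' => hf (congrArg Subtype.val h'))

/-- Non-trivial subgroups of `A₈` with trivial cores. -/
theorem classify (h : TrivCores G) [Nontrivial G] (f : G →* S8) (hf : Function.Injective f)
    (hev : ∀ g, f g ∈ alternatingGroup (Fin 8)) :
    (∃ n : ℕ, 5 ≤ n ∧ n ≤ 8 ∧ Nonempty (G ≃* alternatingGroup (Fin n))) ∨
      Nonempty (G ≃* Perm (Fin 5)) ∨ Nonempty (G ≃* Perm (Fin 6)) ∨ Nonempty (G ≃* GL (Fin 3) (ZMod 2)) := by
  classical
  have hns := nonsolvable h
  letI : MulAction G (Fin 8) := MulAction.compHom _ f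
  obtain ⟨x₀, hbig⟩ : ∃ x₀ : Fin 8, 5 ≤ Nat.card (MulAction.orbit G x₀) := by
    by_contra hcon
    push Not at hcon
    exact hns (isSolvable_of_small_cover f hf (fun x => MulAction.orbit G x) (fun x => MulAction.mem_orbit_self x)
      (fun x g y hy => MulAction.mem_orbit_of_mem_orbit g hy) (fun x => by have := hcon x; omega))
  set O := MulAction.orbit G x₀ with hO
  have hinv : ∀ (g : G) (y : Fin 8), y ∈ O ↔ f g y ∈ O := fun g y => by
    refine ⟨fun hy => MulAction.mem_orbit_of_mem_orbit g hy, fun hy => ?_⟩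
    have := MulAction.mem_orbit_of_mem_orbit g⁻¹ hy
    rwa [show g⁻¹ • (f g y) = y from inv_smul_smul g y] at this
  let F : G →* Perm O := MonoidHom.mk' (fun g => (f g).subtypePerm fun y => (hinv g y).symm)
    (fun a b => Equiv.ext fun y => Subtype.ext (show f (a * b) y = f a (f b y) by rw [map_mul]; rfl))
  have hO8 : Nat.card O + Nat.card (Oᶜ : Set (Fin 8)) = 8 := by
    rw [Nat.card_coe_set_eq, Nat.card_coe_set_eq, Set.ncard_add_ncard_compl, Nat.card_eq_fintype_card,
      Fintype.card_fin]
  have hF : Function.Injective F := by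
    rw [← MonoidHom.ker_eq_bot_iff]
    have hfix : ∀ g ∈ F.ker, ∀ x ∈ O, f g x = x := fun g hg x hx =>
      congrArg Subtype.val (DFunLike.congr_fun (MonoidHom.mem_ker.mp hg) (⟨x, hx⟩ : O))
    haveI : Group.IsSolvable F.ker := isSolvable_of_small_cover (f.comp F.ker.subtype)
      (hf.comp F.ker.subtype_injective) (fun x => if x ∈ O then {x} else Oᶜ)
      (fun x => by by_cases hx : x ∈ O <;> simp [hx])
      (fun x g y hy => by
        by_cases hx : x ∈ O
        · simp only [hx, if_true, Set.mem_singleton_iff] at hy ⊢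
          subst hy
          exact hfix _ g.2 _ hx
        · simp only [hx, if_false, Set.mem_compl_iff] at hy ⊢
          exact fun hy' => hy ((hinv (g : G) y).mpr hy'))
      (fun x => by
        by_cases hx : x ∈ O
        · simp [hx]
        · simp only [hx, if_false]; omega)
    exact h.eq_bot_of_solvable F.ker
  haveI htr : MulAction.IsPretransitive F.range O := ⟨fun a b => by
    obtain ⟨g, (hg : g • x₀ = (a : Fin 8))⟩ := a.2
    obtain ⟨k, (hk : k • x₀ = (b : Fin 8))⟩ := b.2
    refine ⟨⟨F (k * g⁻¹), ⟨_, rfl⟩⟩, Subtype.ext ?_⟩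
    show (k * g⁻¹) • (a : Fin 8) = b
    rw [← hg, mul_smul, inv_smul_smul, hk]⟩
  have hcard : Nat.card O = Fintype.card O := Nat.card_eq_fintype_card
  rcases (show Nat.card O = 5 ∨ Nat.card O = 6 ∨ Nat.card O = 7 ∨ Nat.card O = 8 by omega) with hc | hc | hc | hc
  · rcases five_cases (hcard ▸ hc) hns F hF with h1 | h1
    · exact Or.inl ⟨5, le_rfl, by norm_num, h1⟩
    · exact Or.inr (Or.inl h1)
  · rcases six_cases (hcard ▸ hc) h F hF with h1 | h1 | h1 | h1
    · exact Or.inl ⟨5, le_rfl, by norm_num, h1⟩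
    · exact Or.inr (Or.inl h1)
    · exact Or.inl ⟨6, by norm_num, by norm_num, h1⟩
    · exact Or.inr (Or.inr (Or.inl h1))
  · have hsub : ∀ g : G, ∀ x, f g x ≠ x → x ∈ O := by
      intro g x hx
      by_contra hxO
      have h1 : (Oᶜ : Set (Fin 8)).ncard = 1 := by rw [← Nat.card_coe_set_eq]; omega
      obtain ⟨a, ha⟩ := Set.ncard_eq_one.mp h1
      have hxa : x = a := by rw [← Set.mem_singleton_iff, ← ha]; exact hxO
      have hga : f g x = a := by
        rw [← Set.mem_singleton_iff, ← ha]
        exact fun hy => hxO ((hinv g x).mpr hy)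
      exact hx (hga.trans hxa.symm)
    have hevO : ∀ g, F g ∈ alternatingGroup O := fun g => by
      rw [Perm.mem_alternatingGroup]
      show Perm.sign ((f g).subtypePerm (fun y => (hinv g y).symm)) = 1
      rw [Perm.sign_subtypePerm (f g) (fun y => (hinv g y).symm) (hsub g)]
      exact Perm.mem_alternatingGroup.mp (hev g)
    rcases seven_cases (hcard ▸ hc) hns F hF hevO with h1 | h1
    · exact Or.inl ⟨7, by norm_num, by norm_num, h1⟩
    · exact Or.inr (Or.inr (Or.inr h1))
  · have huniv : O = Set.univ := (Set.eq_univ_iff_ncard O).mpr (by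
      rw [← Nat.card_coe_set_eq, hc, Nat.card_eq_fintype_card, Fintype.card_fin])
    haveI : MulAction.IsPretransitive f.range (Fin 8) := ⟨fun a b => by
      obtain ⟨g, (hg : g • x₀ = a)⟩ := (huniv ▸ Set.mem_univ a : a ∈ O)
      obtain ⟨k, (hk : k • x₀ = b)⟩ := (huniv ▸ Set.mem_univ b : b ∈ O)
      refine ⟨⟨f (k * g⁻¹), ⟨_, rfl⟩⟩, ?_⟩
      show (k * g⁻¹) • a = b
      rw [← hg, mul_smul, inv_smul_smul, hk]⟩
    rcases eight_cases h f hf hev with h1 | h1
    · exact Or.inl ⟨8, by norm_num, le_rfl, h1⟩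
    · exact Or.inr (Or.inr (Or.inr h1))

end CfsgLib.A8GL4
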